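import Cfsg.Agent.J1.Cent

/-! Element orders of `J1`. -/

set_option autoImplicit false

namespace Cfsg.Agent.J1

open Subgroup Cfsg.Agent.H60

theorem orderOf_A5 : ∀ g : alternatingGroup (Fin 5),
    g ^ 1 = 1 ∨ g ^ 2 = 1 ∨ g ^ 3 = 1 ∨ g ^ 5 = 1 := by
  have h : ∀ g : Equiv.Perm (Fin 5), Equiv.Perm.sign g = 1 →
      g ^ 1 = 1 ∨ g ^ 2 = 1 ∨ g ^ 3 = 1 ∨ g ^ 5 = 1 := by
    decide +kernel
  rintro ⟨g, hg⟩
  rcases h g (Equiv.Perm.mem_alternatingGroup.mp hg) with h | h | h | h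
  · left; exact Subtype.ext h
  · right; left; exact Subtype.ext h
  · right; right; left; exact Subtype.ext h
  · right; right; right; exact Subtype.ext h

/-- The element orders of `J1`. -/
def spec : List ℕ := [1, 2, 3, 5, 6, 7, 10, 11, 15, 19]

theorem orderOf_CJ {g : J} (hg : g ∈ CJ) : orderOf g ∣ 6 ∨ orderOf g ∣ 10 := by
  obtain ⟨e⟩ := centralizer_iso
  have h1 : orderOf g = orderOf (e ⟨g, hg⟩) := by
    rw [MulEquiv.orderOf_eq]
    exact (Subgroup.orderOf_mk g hg).symm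
  rw [h1, Prod.orderOf]
  have h2 : orderOf (e ⟨g, hg⟩).1 ∣ 2 := by
    have := orderOf_dvd_natCard (e ⟨g, hg⟩).1
    rwa [Nat.card_eq_fintype_card, Fintype.card_multiplicative, ZMod.card] at this
  rcases orderOf_A5 (e ⟨g, hg⟩).2 with h | h | h | h
  · left
    have := orderOf_dvd_of_pow_eq_one h
    exact Nat.lcm_dvd (h2.trans (by norm_num)) (this.trans (by norm_num))
  · left
    have := orderOf_dvd_of_pow_eq_one h
    exact Nat.lcm_dvd (h2.trans (by norm_num)) (this.trans (by norm_num))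
  · left
    have := orderOf_dvd_of_pow_eq_one h
    exact Nat.lcm_dvd (h2.trans (by norm_num)) (this.trans (by norm_num))
  · right
    have := orderOf_dvd_of_pow_eq_one h
    exact Nat.lcm_dvd (h2.trans (by norm_num)) (this.trans (by norm_num))

theorem orderOf_even {g : J} (h : 2 ∣ orderOf g) : orderOf g ∣ 6 ∨ orderOf g ∣ 10 := by
  have h1 : orderOf (g ^ (orderOf g / 2)) = 2 := by
    rw [orderOf_pow_of_dvd]
    · exact Nat.div_div_self h (orderOf_pos g).ne'
    · exact (Nat.div_pos (Nat.le_of_dvd (orderOf_pos g) h) (by norm_num)).ne'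
    · exact Nat.div_dvd_of_dvd h
  obtain ⟨a, ha⟩ := exists_conj_inv h1
  have h2 : a * g * a⁻¹ ∈ CJ := by
    rw [mem_CJ, ← ha]
    have hc : g * g ^ (orderOf g / 2) = g ^ (orderOf g / 2) * g :=
      ((Commute.refl g).pow_right _)
    have e1 : a * g * a⁻¹ * (a * g ^ (orderOf g / 2) * a⁻¹) =
        a * (g * g ^ (orderOf g / 2)) * a⁻¹ := by group
    have e2 : a * g ^ (orderOf g / 2) * a⁻¹ * (a * g * a⁻¹) =
        a * (g ^ (orderOf g / 2) * g) * a⁻¹ := by group
    rw [e1, e2, hc]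
  have h3 : orderOf (a * g * a⁻¹) = orderOf g := by
    have := MulEquiv.orderOf_eq (MulAut.conj a) g
    exact this
  rw [← h3]
  exact orderOf_CJ h2

theorem dvd6 {n : ℕ} (h : n ∣ 6) : n ∈ spec := by
  have h1 := Nat.le_of_dvd (by norm_num) h
  unfold spec
  interval_cases n <;> revert h <;> decide

theorem dvd10 {n : ℕ} (h : n ∣ 10) : n ∈ spec := by
  have h1 := Nat.le_of_dvd (by norm_num) h
  unfold spec
  interval_cases n <;> revert h <;> decide

theorem dvd15 {n : ℕ} (h : n ∣ 15) : n ∈ spec := by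
  have h1 := Nat.le_of_dvd (by norm_num) h
  unfold spec
  interval_cases n <;> revert h <;> decide

theorem orderOf_mem_spec (g : J) : orderOf g ∈ spec := by
  have h7 : Fact (Nat.Prime 7) := ⟨by norm_num⟩
  have h11 : Fact (Nat.Prime 11) := ⟨by norm_num⟩
  have h19 : Fact (Nat.Prime 19) := ⟨by norm_num⟩
  by_cases e7 : 7 ∣ orderOf g
  · rw [orderOf_eq_of_dvd (fun a ha => card_cent7 ha) e7]; decide
  by_cases e11 : 11 ∣ orderOf g
  · rw [orderOf_eq_of_dvd (fun a ha => card_cent11 ha) e11]; decide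
  by_cases e19 : 19 ∣ orderOf g
  · rw [orderOf_eq_of_dvd (fun a ha => card_cent19 ha) e19]; decide
  by_cases e2 : 2 ∣ orderOf g
  · rcases orderOf_even e2 with h | h
    · exact dvd6 h
    · exact dvd10 h
  · apply dvd15
    have hd : orderOf g ∣ 11704 * 15 := by
      have := orderOf_dvd_natCard g
      rwa [card_J] at this
    have hc : Nat.Coprime (orderOf g) 11704 := by
      have c1 : Nat.Coprime (orderOf g) 2 :=
        ((Nat.Prime.coprime_iff_not_dvd (by norm_num)).mpr e2).symm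
      have c2 : Nat.Coprime (orderOf g) 7 :=
        ((Nat.Prime.coprime_iff_not_dvd (by norm_num)).mpr e7).symm
      have c3 : Nat.Coprime (orderOf g) 11 :=
        ((Nat.Prime.coprime_iff_not_dvd (by norm_num)).mpr e11).symm
      have c4 : Nat.Coprime (orderOf g) 19 :=
        ((Nat.Prime.coprime_iff_not_dvd (by norm_num)).mpr e19).symm
      have : (11704 : ℕ) = 2 ^ 3 * 7 * 11 * 19 := by norm_num
      rw [this]
      exact (((c1.pow_right 3).mul_right c2).mul_right c3).mul_right c4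
    exact hc.dvd_of_dvd_mul_left hd

theorem mJ_dJ : mJ * dJ = dJ * mJ := by
  unfold mJ dJ
  rw [hJ_mul, hJ_mul]
  congr 1

theorem exists_order6 : ∃ g : J, orderOf g = 6 := by
  refine ⟨mJ * dJ, ?_⟩
  have hc : Commute mJ dJ := mJ_dJ
  rw [hc.orderOf_mul_eq_mul_orderOf_of_coprime (by rw [orderOf_mJ, orderOf_dJ]; norm_num),
    orderOf_mJ, orderOf_dJ]

theorem exists_order10 : ∃ g : J, orderOf g = 10 := by
  have : Fact (Nat.Prime 5) := ⟨by norm_num⟩
  obtain ⟨⟨a, ha⟩, hao⟩ := exists_prime_orderOf_dvd_card' (G := CJ) 5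
    (by rw [card_centralizer_dJ]; norm_num)
  rw [Subgroup.orderOf_mk] at hao
  refine ⟨a * dJ, ?_⟩
  have hc : Commute a dJ := mem_CJ.mp ha
  rw [hc.orderOf_mul_eq_mul_orderOf_of_coprime (by rw [hao, orderOf_dJ]; norm_num), hao,
    orderOf_dJ]

theorem exists_of_mem_spec {n : ℕ} (h : n ∈ spec) : ∃ g : J, orderOf g = n := by
  unfold spec at h
  simp only [List.mem_cons, List.not_mem_nil, or_false] at h
  rcases h with rfl | rfl | rfl | rfl | rfl | rfl | rfl | rfl | rfl | rfl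
  · exact ⟨1, orderOf_one⟩
  · exact ⟨dJ, orderOf_dJ⟩
  · exact ⟨mJ, orderOf_mJ⟩
  · exact ⟨yJ, orderOf_yJ⟩
  · exact exists_order6
  · exact ⟨xJ, orderOf_xJ⟩
  · exact exists_order10
  · exact ⟨z11J, orderOf_z11J⟩
  · exact ⟨z15J, orderOf_z15J⟩
  · exact ⟨z19J, orderOf_z19J⟩

/-- The element orders of `J1` are `1, 2, 3, 5, 6, 7, 10, 11, 15, 19`. -/
theorem spectrum_J (n : ℕ) : (∃ g : J, orderOf g = n) ↔ n ∈ spec := by
  constructor
  · rintro ⟨g, rfl⟩
    exact orderOf_mem_spec g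
  · exact exists_of_mem_spec

end Cfsg.Agent.J1
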